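import Mathlib.FieldTheory.IsAlgClosed.Classification
import Mathlib.Analysis.Complex.Cardinality
import Mathlib.Analysis.Complex.Polynomial.Basic
import Mathlib.FieldTheory.AlgebraicClosure
import Mathlib.SetTheory.Cardinal.Subfield
import Mathlib.RingTheory.Algebraic.Cardinality

/-!
# Embedding countable fields of characteristic zero into the complex numbers
-/

set_option autoImplicit false

universe u

open Cardinal

namespace Groth.Agent.Pi1.H381.EmbedC

/-- A countable field of characteristic zero embeds into the complex numbers. -/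
theorem exists_ringHom (K : Type u) [Field K] [CharZero K] [Countable K] :
    Nonempty (K →+* ℂ) := by
  obtain ⟨ι, x, hx⟩ := exists_isTranscendenceBasis' ℚ K
  obtain ⟨κ, y, hy⟩ := exists_isTranscendenceBasis' ℚ ℂ
  have hι : Countable ι := hx.1.injective.countable
  have hκ : Infinite κ := by
    have h1 : #ℂ = #κ := IsAlgClosed.cardinal_eq_cardinal_transcendence_basis_of_aleph0_lt' y hy
      (by simp) (by rw [Cardinal.mk_complex]; exact Cardinal.aleph0_lt_continuum)
    rw [← Cardinal.aleph0_le_mk_iff, ← h1, Cardinal.mk_complex]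
    exact Cardinal.aleph0_le_continuum
  obtain ⟨e₀, he₀⟩ := exists_injective_nat ι
  let e : ι → κ := Infinite.natEmbedding κ ∘ e₀
  have he : Function.Injective e := (Infinite.natEmbedding κ).injective.comp he₀
  have hz : AlgebraicIndependent ℚ (y ∘ e) := hy.1.comp e he
  let _ : Algebra (MvPolynomial ι ℚ) K := (MvPolynomial.aeval x).toAlgebra
  let _ : Algebra (MvPolynomial ι ℚ) ℂ := (MvPolynomial.aeval (y ∘ e)).toAlgebra
  have h1 : Function.Injective (algebraMap (MvPolynomial ι ℚ) K) := hx.1
  have h2 : Function.Injective (algebraMap (MvPolynomial ι ℚ) ℂ) := hz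
  have : FaithfulSMul (MvPolynomial ι ℚ) K := (faithfulSMul_iff_algebraMap_injective _ _).2 h1
  have : FaithfulSMul (MvPolynomial ι ℚ) ℂ := (faithfulSMul_iff_algebraMap_injective _ _).2 h2
  have : Algebra.IsAlgebraic (MvPolynomial ι ℚ) K := by
    have h3 := hx.isAlgebraic
    exact h3.of_ringHom_of_comp_eq hx.1.aevalEquiv (RingHom.id K) hx.1.aevalEquiv.surjective
      Function.injective_id (by
        ext p <;> simp [AlgebraicIndependent.algebraMap_aevalEquiv, RingHom.algebraMap_toAlgebra])
  exact ⟨(IsAlgClosed.lift (R := MvPolynomial ι ℚ) (S := K) (M := ℂ)).toRingHom⟩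

/-- A countable subset of an algebraically closed field lies in a countable algebraically closed
subfield. -/
theorem exists_subfield (k : Type u) [Field k] [IsAlgClosed k] (T : Set k) (hT : T.Countable) :
    ∃ K₀ : Subfield k, T ⊆ K₀ ∧ Countable K₀ ∧ IsAlgClosed K₀ := by
  let F : Subfield k := Subfield.closure T
  have hF : Countable F := by
    rw [← Cardinal.mk_le_aleph0_iff]
    refine (Subfield.cardinalMk_closure_le_max T).trans (max_le ?_ le_rfl)
    rw [Cardinal.mk_le_aleph0_iff]
    exact hT.to_subtype
  let E : IntermediateField F k := algebraicClosure F k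
  have hE : IsAlgClosed E := (inferInstance : IsAlgClosure F E).isAlgClosed
  have hE2 : Countable E := by
    rw [← Cardinal.mk_le_aleph0_iff]
    refine (Algebra.IsAlgebraic.cardinalMk_le_max F E).trans (max_le ?_ le_rfl)
    rw [Cardinal.mk_le_aleph0_iff]
    exact hF
  refine ⟨E.toSubfield, ?_, hE2, hE⟩
  intro x hx
  exact E.algebraMap_mem ⟨x, Subfield.subset_closure hx⟩

end Groth.Agent.Pi1.H381.EmbedC
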