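import Groth.Agent.Pi1A.ProperModel
import Groth.Agent.Pi1.H381.EmbedC
import Mathlib.Algebra.MvPolynomial.Cardinal
import Mathlib.RingTheory.FiniteType
import Mathlib.AlgebraicGeometry.Noetherian

/-!
# Proper schemes over an algebraically closed field come from countable algebraically closed fields
-/

set_option autoImplicit false

universe u

open CategoryTheory AlgebraicGeometry Limits

namespace Groth.Agent.Pi1.H381.ModelC

open Groth.Agent.Pi1A

theorem countable_of_fg {R S : Type u} [CommRing R] [Countable R] [CommRing S] [Algebra R S]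
    (A : Subalgebra R S) (hA : A.FG) : Countable A := by
  have : Algebra.FiniteType R A := (Subalgebra.fg_iff_finiteType A).1 hA
  obtain ⟨n, f, hf⟩ := Algebra.FiniteType.iff_quotient_mvPolynomial''.1 this
  have : Countable (MvPolynomial (Fin n) R) := by
    rw [← Cardinal.mk_le_aleph0_iff]
    refine MvPolynomial.cardinalMk_le_max_lift.trans ?_
    simp
  exact hf.countable

/-- A proper scheme over an algebraically closed field is defined over a countable algebraically
closed subfield. -/
theorem exists_model (k : Type u) [Field k] [IsAlgClosed k] {X : Scheme.{u}}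
    (pX : X ⟶ Spec (CommRingCat.of k)) [IsProper pX] :
    ∃ (K₀ : Type u) (_ : Field K₀) (_ : IsAlgClosed K₀) (_ : Countable K₀) (i : K₀ →+* k)
      (X₀ : Scheme.{u}) (p₀ : X₀ ⟶ Spec (CommRingCat.of K₀)) (q : X ⟶ X₀),
      IsProper p₀ ∧ IsPullback q pX p₀ (Spec.map (CommRingCat.ofHom i)) := by
  have : LocallyOfFinitePresentation pX := inferInstance
  let _ : Algebra (ULift.{u} ℤ) k :=
    ((Int.castRingHom k).comp (ULift.ringEquiv.{0, u} (R := ℤ)).toRingHom).toAlgebra
  obtain ⟨A, hA, X₁, f₁, q, h1, h2, h3⟩ := ProperModel.exists_model (ULift.{u} ℤ) k pX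
  have hAc : Countable A := countable_of_fg A hA
  obtain ⟨K₀, hT, hc, hac⟩ := EmbedC.exists_subfield k (A : Set k) (Set.to_countable _)
  let a : A →+* K₀ := A.val.toRingHom.codRestrict K₀ (fun x => hT x.2)
  let i : K₀ →+* k := K₀.subtype
  have hai : i.comp a = algebraMap A k := by ext x; rfl
  let X₀ := pullback f₁ (Spec.map (CommRingCat.ofHom a))
  have hbase : FGLimit.toBase A k = Spec.map (CommRingCat.ofHom i) ≫
      Spec.map (CommRingCat.ofHom a) := by
    rw [← Spec.map_comp, ← CommRingCat.ofHom_comp, hai]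
  rw [hbase] at h3
  let q₀ : X ⟶ X₀ := pullback.lift q (pX ≫ Spec.map (CommRingCat.ofHom i)) (by
    rw [h3.w, Category.assoc])
  refine ⟨K₀, inferInstance, hac, hc, i, X₀, pullback.snd _ _, q₀, inferInstance, ?_⟩
  refine IsPullback.of_right (h₁₂ := pullback.fst _ _) (v₁₃ := f₁)
    (h₂₂ := Spec.map (CommRingCat.ofHom a)) ?_ (pullback.lift_snd _ _ _)
    (IsPullback.of_hasPullback _ _)
  rw [pullback.lift_fst]
  exact h3

end Groth.Agent.Pi1.H381.ModelC
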