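import Groth.Agent.Pi1.H381.ModelC
import Mathlib.AlgebraicGeometry.AlgClosed.Basic
import Mathlib.AlgebraicGeometry.PullbackCarrier

/-!
# Rational points and extensions of algebraically closed fields

For a cartesian square `X = X₀ ×_{k₀} k` the closed points of `X₀` (`k₀` algebraically closed) have
exactly one preimage in `X`. A proper scheme with finitely many marked closed points over an
algebraically closed field is defined, with its marked points, over a countable algebraically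
closed subfield.
-/

set_option autoImplicit false

universe u

open CategoryTheory CategoryTheory.Limits AlgebraicGeometry

namespace Groth.Agent.Pi1.H381.PointSq

theorem exists_preimage_of_isPullback {P X Y Z : Scheme.{u}} {a : P ⟶ X} {b : P ⟶ Y} {f : X ⟶ Z}
    {g : Y ⟶ Z} (h : IsPullback a b f g) (x : X) (y : Y) (hxy : f x = g y) :
    ∃ z : P, a z = x ∧ b z = y := by
  obtain ⟨z, hz1, hz2⟩ := Scheme.Pullback.exists_preimage_pullback x y hxy
  refine ⟨h.isoPullback.inv z, ?_, ?_⟩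
  · rw [← Scheme.Hom.comp_apply, h.isoPullback_inv_fst, hz1]
  · rw [← Scheme.Hom.comp_apply, h.isoPullback_inv_snd, hz2]

section Square

variable {k₀ k : Type u} [Field k₀] [Field k] {i : k₀ →+* k} {X₀ X : Scheme.{u}}
  {p₀ : X₀ ⟶ Spec (CommRingCat.of k₀)} {p : X ⟶ Spec (CommRingCat.of k)} {q : X ⟶ X₀}
  (h : IsPullback q p p₀ (Spec.map (CommRingCat.ofHom i)))

include h

theorem exists_point (s₀ : Spec (CommRingCat.of k₀) ⟶ X₀) (hs₀ : s₀ ≫ p₀ = 𝟙 _) :
    ∃ s : Spec (CommRingCat.of k) ⟶ X, s ≫ p = 𝟙 _ ∧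
      IsPullback s (Spec.map (CommRingCat.ofHom i)) q s₀ := by
  let s : Spec (CommRingCat.of k) ⟶ X := h.lift (Spec.map (CommRingCat.ofHom i) ≫ s₀) (𝟙 _)
    (by rw [Category.assoc, hs₀, Category.comp_id, Category.id_comp])
  have h1 : s ≫ q = Spec.map (CommRingCat.ofHom i) ≫ s₀ := h.lift_fst _ _ _
  have h2 : s ≫ p = 𝟙 _ := h.lift_snd _ _ _
  refine ⟨s, h2, IsPullback.of_right (h₁₂ := p) (v₁₃ := Spec.map (CommRingCat.ofHom i))
    (h₂₂ := p₀) ?_ h1 h.flip⟩
  rw [h2, hs₀]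
  exact IsPullback.of_horiz_isIso ⟨by simp⟩

/-- A rational point of `X₀` has exactly one preimage in `X`. -/
theorem preimage_rational (s₀ : Spec (CommRingCat.of k₀) ⟶ X₀) (hs₀ : s₀ ≫ p₀ = 𝟙 _)
    (x₀ : X₀) (hx₀ : x₀ ∈ Set.range s₀) : ∃ a : X, q ⁻¹' {x₀} = {a} := by
  obtain ⟨s, -, hs⟩ := exists_point h s₀ hs₀
  have : Subsingleton ↥(Spec (CommRingCat.of k)) :=
    inferInstanceAs (Subsingleton (PrimeSpectrum k))
  have : Subsingleton ↥(Spec (CommRingCat.of k₀)) :=
    inferInstanceAs (Subsingleton (PrimeSpectrum k₀))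
  have hne : Nonempty ↥(Spec (CommRingCat.of k)) := inferInstanceAs (Nonempty (PrimeSpectrum k))
  obtain ⟨y, rfl⟩ := hx₀
  refine ⟨s (Classical.arbitrary _), ?_⟩
  ext x
  simp only [Set.mem_preimage, Set.mem_singleton_iff]
  constructor
  · intro hx
    obtain ⟨z, hz1, -⟩ := exists_preimage_of_isPullback hs x y hx
    rw [← hz1, Subsingleton.elim z]
  · rintro rfl
    have h2 : (s ≫ q) (Classical.arbitrary _) = (Spec.map (CommRingCat.ofHom i) ≫ s₀)
      (Classical.arbitrary _) := by rw [hs.w]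
    rw [Scheme.Hom.comp_apply, Scheme.Hom.comp_apply] at h2
    rw [h2, Subsingleton.elim y]

/-- A closed point of `X₀` has exactly one preimage in `X`. -/
theorem preimage_closed [IsAlgClosed k₀] [LocallyOfFiniteType p₀] (x₀ : X₀)
    (hx₀ : IsClosed ({x₀} : Set X₀)) : ∃ a : X, q ⁻¹' {x₀} = {a} :=
  preimage_rational h (pointOfClosedPoint p₀ x₀ hx₀) (pointOfClosedPoint_comp _ _ _) x₀
    ⟨IsLocalRing.closedPoint k₀, pointOfClosedPoint_apply _ _ _ _⟩

/-- The complement of the preimage of an open whose complement consists of finitely many closed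
points. -/
theorem compl_preimage [IsAlgClosed k₀] [LocallyOfFiniteType p₀] (U₀ : X₀.Opens)
    (hfin : (U₀ : Set X₀)ᶜ.Finite) (hcl : ∀ a ∈ (U₀ : Set X₀)ᶜ, IsClosed ({a} : Set X₀)) :
    ((q ⁻¹ᵁ U₀ : X.Opens) : Set X)ᶜ.Finite ∧
      Nat.card ↥(((q ⁻¹ᵁ U₀ : X.Opens) : Set X)ᶜ) = Nat.card ↥((U₀ : Set X₀)ᶜ) ∧
      ∀ a ∈ ((q ⁻¹ᵁ U₀ : X.Opens) : Set X)ᶜ, IsClosed ({a} : Set X) := by
  have h1 : ((q ⁻¹ᵁ U₀ : X.Opens) : Set X)ᶜ = q ⁻¹' ((U₀ : Set X₀)ᶜ) := rfl
  rw [h1]
  have hinj : Set.InjOn q (q ⁻¹' ((U₀ : Set X₀)ᶜ)) := by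
    intro x hx y hy hxy
    obtain ⟨a, ha⟩ := preimage_closed h (q x) (hcl _ hx)
    have hx' : x ∈ q ⁻¹' {q x} := rfl
    have hy' : y ∈ q ⁻¹' {q x} := hxy.symm
    rw [ha] at hx' hy'
    exact hx'.trans hy'.symm
  have himg : q '' (q ⁻¹' ((U₀ : Set X₀)ᶜ)) = (U₀ : Set X₀)ᶜ := by
    apply Set.image_preimage_eq_of_subset
    intro x hx
    obtain ⟨a, ha⟩ := preimage_closed h x (hcl _ hx)
    have : a ∈ q ⁻¹' {x} := by rw [ha]; rfl
    exact ⟨a, this⟩
  refine ⟨?_, ?_, ?_⟩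
  · refine Set.Finite.of_finite_image ?_ hinj
    rw [himg]
    exact hfin
  · rw [← Nat.card_image_of_injOn hinj, himg]
  · intro a ha
    obtain ⟨b, hb⟩ := preimage_closed h (q a) (hcl _ ha)
    have ha' : a ∈ q ⁻¹' {q a} := rfl
    have : ({a} : Set X) = q ⁻¹' {q a} := by
      rw [hb] at ha' ⊢
      rw [ha']
    rw [this]
    exact (hcl _ ha).preimage q.continuous

end Square

/-- A field-valued point of a scheme locally of finite type over a countable field is defined over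
every subfield containing some countable set. -/
theorem exists_countable {K₁ k : Type u} [Field K₁] [Countable K₁] [Field k]
    {X₁ : Scheme.{u}} (p₁ : X₁ ⟶ Spec (CommRingCat.of K₁)) [LocallyOfFiniteType p₁]
    (c : Spec (CommRingCat.of k) ⟶ X₁) :
    ∃ T : Set k, T.Countable ∧ ∀ K₀ : Subfield k, T ⊆ K₀ →
      ∃ c₀ : Spec (CommRingCat.of K₀) ⟶ X₁, Spec.map (CommRingCat.ofHom K₀.subtype) ≫ c₀ = c := by
  have hsub : Subsingleton ↥(Spec (CommRingCat.of k)) :=
    inferInstanceAs (Subsingleton (PrimeSpectrum k))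
  have hne : Nonempty ↥(Spec (CommRingCat.of k)) := inferInstanceAs (Nonempty (PrimeSpectrum k))
  let y : ↥(Spec (CommRingCat.of k)) := Classical.arbitrary _
  obtain ⟨R, f, hf, hfy⟩ : ∃ (R : CommRingCat.{u}) (f : Spec R ⟶ X₁), IsOpenImmersion f ∧
      c y ∈ Set.range f :=
    ⟨_, X₁.affineOpenCover.f (X₁.affineOpenCover.idx (c y)), inferInstance,
      X₁.affineOpenCover.covers (c y)⟩
  obtain ⟨φ, hφ⟩ : ∃ φ : R ⟶ CommRingCat.of k, Spec.map φ ≫ f = c := by
    have hr : Set.range c ⊆ Set.range f := by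
      rintro _ ⟨z, rfl⟩
      rwa [Subsingleton.elim z y]
    exact ⟨Spec.preimage (IsOpenImmersion.lift f c hr), by
      rw [Spec.map_preimage, IsOpenImmersion.lift_fac]⟩
  have hft : (Spec.preimage (f ≫ p₁)).hom.FiniteType := by
    rw [← HasRingHomProperty.Spec_iff (P := @LocallyOfFiniteType), Spec.map_preimage]
    infer_instance
  have hRc : Countable R := by
    let _ : Algebra K₁ R := (Spec.preimage (f ≫ p₁)).hom.toAlgebra
    have : Algebra.FiniteType K₁ R := hft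
    obtain ⟨n, g, hg⟩ := Algebra.FiniteType.iff_quotient_mvPolynomial''.1 this
    have : Countable (MvPolynomial (Fin n) K₁) := by
      rw [← Cardinal.mk_le_aleph0_iff]
      refine MvPolynomial.cardinalMk_le_max_lift.trans ?_
      simp
    exact hg.countable
  refine ⟨Set.range φ.hom, Set.countable_range _, fun K₀ hK₀ => ?_⟩
  let φ₀ : R →+* K₀ := φ.hom.codRestrict K₀ (fun x => hK₀ ⟨x, rfl⟩)
  refine ⟨Spec.map (CommRingCat.ofHom φ₀) ≫ f, ?_⟩
  rw [← Category.assoc, ← Spec.map_comp, ← CommRingCat.ofHom_comp]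
  exact hφ

/-- A proper scheme over an algebraically closed field with finitely many marked closed points is
defined, with the marked points, over a countable algebraically closed subfield. -/
theorem exists_model_open (k : Type u) [Field k] [IsAlgClosed k] {X : Scheme.{u}}
    (pX : X ⟶ Spec (CommRingCat.of k)) [IsProper pX] (U : X.Opens)
    (hfin : (U : Set X)ᶜ.Finite) (hcl : ∀ a ∈ (U : Set X)ᶜ, IsClosed ({a} : Set X)) :
    ∃ (K₀ : Type u) (_ : Field K₀) (_ : IsAlgClosed K₀) (_ : Countable K₀) (i : K₀ →+* k)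
      (X₀ : Scheme.{u}) (p₀ : X₀ ⟶ Spec (CommRingCat.of K₀)) (q : X ⟶ X₀) (U₀ : X₀.Opens),
      IsProper p₀ ∧ IsPullback q pX p₀ (Spec.map (CommRingCat.ofHom i)) ∧ q ⁻¹ᵁ U₀ = U ∧
        (U₀ : Set X₀)ᶜ.Finite ∧ ∀ a ∈ (U₀ : Set X₀)ᶜ, IsClosed ({a} : Set X₀) := by
  obtain ⟨K₁, _, _, _, i₁, X₁, p₁, q₁, hp₁, h₁⟩ := ModelC.exists_model k pX
  have hU : ∀ a : ↥((U : Set X)ᶜ), ∃ T : Set k, T.Countable ∧ ∀ K₀ : Subfield k, T ⊆ K₀ →
      ∃ c₀ : Spec (CommRingCat.of K₀) ⟶ X₁, Spec.map (CommRingCat.ofHom K₀.subtype) ≫ c₀ =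
        pointOfClosedPoint pX a.1 (hcl a.1 a.2) ≫ q₁ :=
    fun a => exists_countable p₁ _
  choose T hTc hT using hU
  have : Finite ↥((U : Set X)ᶜ) := hfin
  obtain ⟨K₀, hK, hc, hac⟩ := EmbedC.exists_subfield k (Set.range i₁ ∪ ⋃ a, T a)
    ((Set.countable_range _).union (Set.countable_iUnion hTc))
  let a : K₁ →+* K₀ := i₁.codRestrict K₀ (fun x => hK (Or.inl ⟨x, rfl⟩))
  let i : K₀ →+* k := K₀.subtype
  have hai : i.comp a = i₁ := by ext x; rfl
  have hbase : Spec.map (CommRingCat.ofHom i₁) = Spec.map (CommRingCat.ofHom i) ≫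
      Spec.map (CommRingCat.ofHom a) := by
    rw [← Spec.map_comp, ← CommRingCat.ofHom_comp, hai]
  rw [hbase] at h₁
  let X₀ := pullback p₁ (Spec.map (CommRingCat.ofHom a))
  let q : X ⟶ X₀ := pullback.lift q₁ (pX ≫ Spec.map (CommRingCat.ofHom i)) (by
    rw [h₁.w, Category.assoc])
  have hq : IsPullback q pX (pullback.snd _ _) (Spec.map (CommRingCat.ofHom i)) := by
    refine IsPullback.of_right (h₁₂ := pullback.fst _ _) (v₁₃ := p₁)
      (h₂₂ := Spec.map (CommRingCat.ofHom a)) ?_ (pullback.lift_snd _ _ _)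
      (IsPullback.of_hasPullback _ _)
    rw [pullback.lift_fst]
    exact h₁
  have hkey : ∀ b ∈ (U : Set X)ᶜ, IsClosed ({q b} : Set X₀) ∧ q ⁻¹' {q b} = {b} := by
    intro b hb
    obtain ⟨c₀, hc₀⟩ := hT ⟨b, hb⟩ K₀ (fun x hx => hK (Or.inr (Set.mem_iUnion.2 ⟨_, hx⟩)))
    have hs : pointOfClosedPoint pX b (hcl b hb) ≫ pX = 𝟙 _ := pointOfClosedPoint_comp _ _ _
    have h2 : c₀ ≫ p₁ = Spec.map (CommRingCat.ofHom a) := by
      obtain ⟨ψ, hψ⟩ := Spec.map_surjective (c₀ ≫ p₁)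
      have h21 : Spec.map (CommRingCat.ofHom i) ≫ Spec.map ψ =
          Spec.map (CommRingCat.ofHom i) ≫ Spec.map (CommRingCat.ofHom a) := by
        rw [hψ, ← Category.assoc, hc₀, Category.assoc, h₁.w, ← Category.assoc, hs,
          Category.id_comp]
      rw [← Spec.map_comp, ← Spec.map_comp] at h21
      have h22 := Spec.map_injective h21
      rw [← hψ]
      congr 1
      ext x
      exact congrArg (fun (φ : CommRingCat.of K₁ ⟶ CommRingCat.of k) => φ.hom x) h22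
    let s₀ : Spec (CommRingCat.of K₀) ⟶ X₀ := pullback.lift c₀ (𝟙 _) (by
      rw [h2, Category.id_comp])
    have hs₀ : s₀ ≫ pullback.snd _ _ = 𝟙 _ := pullback.lift_snd _ _ _
    have h3 : pointOfClosedPoint pX b (hcl b hb) ≫ q = Spec.map (CommRingCat.ofHom i) ≫ s₀ := by
      apply pullback.hom_ext
      · rw [Category.assoc, Category.assoc, pullback.lift_fst, pullback.lift_fst, hc₀]
      · rw [Category.assoc, Category.assoc, pullback.lift_snd, hs₀, Category.comp_id,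
          ← Category.assoc, hs, Category.id_comp]
    have h4 : q b ∈ Set.range s₀ := by
      have h5 : (pointOfClosedPoint pX b (hcl b hb) ≫ q) (IsLocalRing.closedPoint k) =
          (Spec.map (CommRingCat.ofHom i) ≫ s₀) (IsLocalRing.closedPoint k) := by rw [h3]
      rw [Scheme.Hom.comp_apply, Scheme.Hom.comp_apply, pointOfClosedPoint_apply] at h5
      exact ⟨_, h5.symm⟩
    obtain ⟨b', hb'⟩ := preimage_rational hq s₀ hs₀ (q b) h4
    have hbb : b = b' := by
      have : b ∈ q ⁻¹' {q b} := rfl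
      rwa [hb'] at this
    rw [hb', hbb]
    refine ⟨?_, rfl⟩
    have h6 : IsClosedImmersion s₀ := isClosedImmersion_of_comp_eq_id _ _ hs₀
    have h7 := s₀.isClosedEmbedding.isClosed_range
    have hss : Subsingleton ↥(Spec (CommRingCat.of K₀)) :=
      inferInstanceAs (Subsingleton (PrimeSpectrum K₀))
    obtain ⟨z, hz⟩ := h4
    have h8 : Set.range s₀ = {q b'} := by
      rw [← hbb, ← hz]
      ext w
      constructor
      · rintro ⟨w', rfl⟩
        rw [Subsingleton.elim w' z]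
        rfl
      · rintro rfl
        exact ⟨z, rfl⟩
    rwa [h8] at h7
  let Z₀ : Set X₀ := q '' (U : Set X)ᶜ
  have hZf : Z₀.Finite := hfin.image _
  have hZc : ∀ b ∈ Z₀, IsClosed ({b} : Set X₀) := by
    rintro _ ⟨b, hb, rfl⟩
    exact (hkey b hb).1
  have hZ : IsClosed Z₀ := by
    rw [← Set.biUnion_of_singleton Z₀]
    exact hZf.isClosed_biUnion hZc
  have hpre : q ⁻¹' Z₀ = (U : Set X)ᶜ := by
    apply Set.Subset.antisymm
    · rintro x ⟨b, hb, hbx⟩
      have : x ∈ q ⁻¹' {q b} := hbx.symm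
      rw [(hkey b hb).2] at this
      rw [this]
      exact hb
    · exact fun x hx => ⟨x, hx, rfl⟩
  refine ⟨K₀, inferInstance, hac, hc, i, X₀, pullback.snd _ _, q, ⟨Z₀ᶜ, hZ.isOpen_compl⟩,
    inferInstance, hq, ?_, ?_, ?_⟩
  · apply TopologicalSpace.Opens.ext
    change q ⁻¹' (Z₀ᶜ) = (U : Set X)
    rw [Set.preimage_compl, hpre, compl_compl]
  · change (Z₀ᶜᶜ).Finite
    rw [compl_compl]
    exact hZf
  · change ∀ b ∈ Z₀ᶜᶜ, _
    rw [compl_compl]
    exact hZc

end Groth.Agent.Pi1.H381.PointSq
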